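import Cfsg.Agent.H183.HT.PEmb

/-!
# S4933: embeddings of orthogonal groups (helper183)
-/

set_option autoImplicit false

namespace Cfsg.Agent.H183.HT

open Matrix Cfsg.Agent.H104.OrthEmb

variable {F : Type} [Field F]

/-- `GL_m → O⁺_{2m}` : `A ↦ diag(A, A⁻ᵀ)` -/
theorem emb_gl_plus (m : ℕ) : ∃ φ : Matrix.GeneralLinearGroup (Fin m) F →* Cfsg.isometryGroup F (Cfsg.quadFormPlus m F),
    Function.Injective φ := by
  let M : Matrix.GeneralLinearGroup (Fin m) F →* Matrix (Fin m ⊕ Fin m) (Fin m ⊕ Fin m) F :=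
    { toFun := fun A => fromBlocks (A : Matrix (Fin m) (Fin m) F) 0 0
        ((A⁻¹ : Matrix.GeneralLinearGroup (Fin m) F) : Matrix (Fin m) (Fin m) F).transpose
      map_one' := by
        rw [inv_one, Units.val_one, transpose_one]
        exact fromBlocks_one
      map_mul' := fun A B => by
        rw [fromBlocks_multiply, _root_.mul_inv_rev, Units.val_mul, Units.val_mul, transpose_mul]
        simp }
  have hmem : ∀ A, M.toHomUnits A ∈ Cfsg.isometryGroup F (Cfsg.quadFormPlus m F) := by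
    intro A u v
    change Cfsg.quadFormPlus m F ((fromBlocks (A : Matrix (Fin m) (Fin m) F) 0 0
        ((A⁻¹ : Matrix.GeneralLinearGroup (Fin m) F) : Matrix (Fin m) (Fin m) F).transpose) *ᵥ u) =
      Cfsg.quadFormPlus m F u
    rw [fromBlocks_mulVec]
    simp only [Matrix.zero_mulVec, add_zero, zero_add]
    have h1 : ∀ z : Fin m ⊕ Fin m → F, Cfsg.quadFormPlus m F z = (z ∘ Sum.inl) ⬝ᵥ (z ∘ Sum.inr) := fun z => rfl
    rw [h1, h1, Sum.elim_comp_inl, Sum.elim_comp_inr]
    rw [← Matrix.vecMul_transpose, ← Matrix.dotProduct_mulVec, Matrix.mulVec_mulVec, ← transpose_mul]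
    have h2 : ((A⁻¹ : Matrix.GeneralLinearGroup (Fin m) F) : Matrix (Fin m) (Fin m) F) *
      (A : Matrix (Fin m) (Fin m) F) = 1 := by
      rw [← Units.val_mul, inv_mul_cancel, Units.val_one]
    rw [h2, transpose_one, Matrix.one_mulVec]
  refine ⟨M.toHomUnits.codRestrict _ hmem, ?_⟩
  intro A B h
  apply Units.ext
  have h1 : M A = M B := congrArg (fun z => ((z : GL (Fin m ⊕ Fin m) F) :
      Matrix (Fin m ⊕ Fin m) (Fin m ⊕ Fin m) F)) (congrArg Subtype.val h)
  exact (fromBlocks_inj.1 h1).1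

theorem emb_plus_odd (m : ℕ) : ∃ φ : Cfsg.isometryGroup F (Cfsg.quadFormPlus m F) →*
    Cfsg.isometryGroup F (Cfsg.quadFormOdd m F), Function.Injective φ := exists_emb_odd m

theorem emb_plus_minus (m : ℕ) (a b : F) : ∃ φ : Cfsg.isometryGroup F (Cfsg.quadFormPlus m F) →*
    Cfsg.isometryGroup F (Cfsg.quadFormMinus m F a b), Function.Injective φ := exists_emb_minus m a b

theorem emb_plus_succ (m : ℕ) : ∃ φ : Cfsg.isometryGroup F (Cfsg.quadFormPlus m F) →*
    Cfsg.isometryGroup F (Cfsg.quadFormPlus (m + 1) F), Function.Injective φ := exists_emb_plus (Nat.le_succ m)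

theorem emb_minus_succ (m : ℕ) (a b : F) : ∃ φ : Cfsg.isometryGroup F (Cfsg.quadFormMinus m F a b) →*
    Cfsg.isometryGroup F (Cfsg.quadFormMinus (m + 1) F a b), Function.Injective φ := exists_emb_mm (Nat.le_succ m) a b

/-- `O(Q) → GL_n` -/
theorem emb_gl {ι : Type} [Fintype ι] [DecidableEq ι] (Q : (ι → F) → F) :
    ∃ φ : Cfsg.isometryGroup F Q →* Matrix.GeneralLinearGroup (Fin (Fintype.card ι)) F, Function.Injective φ := by
  let e : Matrix.GeneralLinearGroup ι F ≃* Matrix.GeneralLinearGroup (Fin (Fintype.card ι)) F :=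
    Units.mapEquiv (Matrix.reindexAlgEquiv F F (Fintype.equivFin ι)).toMulEquiv
  exact ⟨e.toMonoidHom.comp (Cfsg.isometryGroup F Q).subtype, e.injective.comp Subtype.val_injective⟩

/-- `O(Q) → GL_n`, `n` given -/
theorem emb_gl' {ι : Type} [Fintype ι] [DecidableEq ι] (Q : (ι → F) → F) {n : ℕ} (hn : Fintype.card ι = n) :
    ∃ φ : Cfsg.isometryGroup F Q →* Matrix.GeneralLinearGroup (Fin n) F, Function.Injective φ := by
  subst hn
  exact emb_gl Q

end Cfsg.Agent.H183.HT
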