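import Cfsg.Agent.H104.OrthEmb

/-!
# S4933: embeddings of `p`-groups and of isometry groups (helper183)

`PEmb p A B` : every finite `p`-group embedded in `A` embeds in `B` (`refl`, `trans`, `of_inj`, `of_card`, `of_ker`,
`of_surj`, `of_index`).
`exists_emb_mm` : `O⁻` of smaller rank (the other orthogonal embeddings: `H104.OrthEmb.exists_emb_plus/odd/minus`).
-/

set_option autoImplicit false

namespace Cfsg.Agent.H183.HT

open Matrix Cfsg.Agent.H104.OrthEmb

universe u v w

/-- every finite `p`-group embedded in `A` embeds in `B` -/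
def PEmb (p : ℕ) (A : Type u) [Group A] (B : Type v) [Group B] : Prop :=
  ∀ (X : Type) [Group X] [Finite X], IsPGroup p X → (∃ f : X →* A, Function.Injective f) →
    ∃ f : X →* B, Function.Injective f

variable {p : ℕ} {A : Type u} [Group A] {B : Type v} [Group B] {C : Type w} [Group C]

theorem PEmb.refl (p : ℕ) (A : Type u) [Group A] : PEmb p A A := fun _ _ _ _ h => h

theorem PEmb.trans (h : PEmb p A B) (h' : PEmb p B C) : PEmb p A C := fun X _ _ hX hf => h' X hX (h X hX hf)

theorem PEmb.of_inj (f : A →* B) (hf : Function.Injective f) : PEmb p A B :=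
  fun _ _ _ _ ⟨g, hg⟩ => ⟨f.comp g, hf.comp hg⟩

/-- a `p`-group in `B` is conjugate into a subgroup with the same `p`-part of the order -/
theorem PEmb.of_card [Finite B] [Fact p.Prime] (f : A →* B) (hf : Function.Injective f)
    (hc : (Nat.card B).factorization p = (Nat.card A).factorization p) : PEmb p B A := by
  classical
  intro X _ _ hX ⟨g, hg⟩
  have : Finite A := Finite.of_injective f hf
  obtain ⟨P⟩ : Nonempty (Sylow p A) := inferInstance
  have hP : Nat.card P = p ^ (Nat.card A).factorization p := P.card_eq_multiplicity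
  have hfP : Nat.card ((P : Subgroup A).map f) = p ^ (Nat.card B).factorization p := by
    rw [hc, ← hP]
    exact Nat.card_congr ((P : Subgroup A).equivMapOfInjective f hf).toEquiv.symm
  let S : Sylow p B := Sylow.ofCard ((P : Subgroup A).map f) hfP
  obtain ⟨T, hT⟩ := (IsPGroup.of_surjective hX g.rangeRestrict g.rangeRestrict_surjective).exists_le_sylow
  obtain ⟨b, hb⟩ := MulAction.exists_smul_eq B T S
  have hmem : ∀ x : X, b * g x * b⁻¹ ∈ f.range := by
    intro x
    have h1 : b * g x * b⁻¹ ∈ (S : Subgroup B) := by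
      rw [← hb, Sylow.coe_subgroup_smul]
      exact ⟨g x, hT ⟨x, rfl⟩, rfl⟩
    obtain ⟨a, -, ha⟩ := h1
    exact ⟨a, ha⟩
  let e := f.ofInjective hf
  let k : X →* f.range := ((MulAut.conj b).toMonoidHom.comp g).codRestrict f.range hmem
  refine ⟨e.symm.toMonoidHom.comp k, e.symm.injective.comp ?_⟩
  intro x y hxy
  have h1 : b * g x * b⁻¹ = b * g y * b⁻¹ := congrArg Subtype.val hxy
  exact hg (mul_left_cancel (mul_right_cancel h1))

/-- quotients by `p'`-groups, downwards -/
theorem PEmb.of_ker [Fact p.Prime] (f : A →* B) (hk : ∀ a : A, f a = 1 → a ^ p = 1 → a = 1) : PEmb p A B := by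
  intro X _ _ hX ⟨g, hg⟩
  refine ⟨f.comp g, (injective_iff_map_eq_one _).2 fun x hx => ?_⟩
  by_contra hne
  obtain ⟨n, hn⟩ := (IsPGroup.iff_orderOf.1 hX) x
  have hn0 : n ≠ 0 := by
    rintro rfl
    exact hne (orderOf_eq_one_iff.1 (by rw [hn, pow_zero]))
  obtain ⟨k, rfl⟩ := Nat.exists_eq_succ_of_ne_zero hn0
  have h1 : (x ^ p ^ k) ^ p = 1 := by rw [← pow_mul, ← pow_succ, ← hn, pow_orderOf_eq_one]
  have h2 : g (x ^ p ^ k) = 1 := by
    apply hk
    · rw [map_pow, map_pow]
      have : f (g x) = 1 := hx
      rw [this, one_pow]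
    · rw [← map_pow, h1, map_one]
  have h3 : x ^ p ^ k = 1 := hg (h2.trans (map_one g).symm)
  have h4 := orderOf_dvd_of_pow_eq_one h3
  rw [hn] at h4
  exact absurd (Nat.le_of_dvd (pow_pos (Fact.out : p.Prime).pos _) h4)
    (not_le.2 (Nat.pow_lt_pow_right (Fact.out : p.Prime).one_lt (Nat.lt_succ_self k)))

/-- quotients by `p'`-groups, upwards -/
theorem PEmb.of_surj [Finite A] [hp : Fact p.Prime] (f : A →* B) (hf : Function.Surjective f)
    (hk : ¬ p ∣ Nat.card f.ker) : PEmb p B A := by
  classical
  intro X _ _ hX ⟨g, hg⟩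
  have : Finite g.range := Finite.of_surjective g.rangeRestrict g.rangeRestrict_surjective
  -- a Sylow subgroup of the preimage
  let Y : Subgroup A := g.range.comap f
  obtain ⟨P⟩ : Nonempty (Sylow p Y) := inferInstance
  let k : P →* g.range :=
    { toFun := fun y => ⟨f (y : Y), (y : Y).2⟩
      map_one' := by ext; simp
      map_mul' := fun a b => by ext; simp }
  have hki : Function.Injective k := by
    refine (injective_iff_map_eq_one _).2 fun y hy => ?_
    have h1 : f ((y : Y) : A) = 1 := congrArg Subtype.val hy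
    obtain ⟨n, hn⟩ := (IsPGroup.iff_orderOf.1 P.isPGroup') y
    have h2 : orderOf (⟨((y : Y) : A), h1⟩ : f.ker) = orderOf y := by
      rw [← Subgroup.orderOf_coe, ← Subgroup.orderOf_coe (a := (y : P)), ← Subgroup.orderOf_coe]
    have h3 : orderOf y ∣ Nat.card f.ker := by
      rw [← h2]
      exact orderOf_dvd_natCard _
    rw [hn] at h3
    rcases Nat.eq_zero_or_pos n with h4 | h4
    · rw [h4, pow_zero] at hn
      exact orderOf_eq_one_iff.1 hn
    · exact absurd ((dvd_pow_self p h4.ne').trans h3) hk
  have hcard : Nat.card P = Nat.card g.range := by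
    have hY : Nat.card Y = Nat.card g.range * Nat.card f.ker := by
      have e1 : (f.subgroupComap g.range).ker = f.ker.subgroupOf Y := by
        ext y
        simp only [MonoidHom.mem_ker, Subgroup.mem_subgroupOf]
        constructor
        · intro h
          exact congrArg Subtype.val h
        · intro h
          exact Subtype.ext h
      have hs : Function.Surjective (f.subgroupComap g.range) :=
        MonoidHom.subgroupComap_surjective_of_surjective _ _ hf
      have hle : f.ker ≤ Y := fun a ha => by
        show f a ∈ g.range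
        rw [MonoidHom.mem_ker.1 ha]
        exact one_mem _
      have h1 := Subgroup.card_eq_card_quotient_mul_card_subgroup (f.subgroupComap g.range).ker
      rw [Nat.card_congr (QuotientGroup.quotientKerEquivOfSurjective _ hs).toEquiv, e1,
        Nat.card_congr (Subgroup.subgroupOfEquivOfLe hle).toEquiv] at h1
      exact h1
    have h2 : Nat.card P = p ^ (Nat.card Y).factorization p := P.card_eq_multiplicity
    obtain ⟨n, hn⟩ := (IsPGroup.iff_card (p := p)).1 (IsPGroup.of_surjective hX g.rangeRestrict g.rangeRestrict_surjective)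
    rw [h2, hY, Nat.factorization_mul Nat.card_pos.ne' Nat.card_pos.ne', Finsupp.add_apply,
      Nat.factorization_eq_zero_of_not_dvd hk, add_zero, hn, hp.out.factorization_pow, Finsupp.single_eq_same]
  have hkb : Function.Bijective k := by
    have := Fintype.ofFinite P
    have := Fintype.ofFinite g.range
    exact (Fintype.bijective_iff_injective_and_card k).2 ⟨hki, by
      rw [← Nat.card_eq_fintype_card, ← Nat.card_eq_fintype_card, hcard]⟩
  let e := MulEquiv.ofBijective k hkb
  let e' := g.ofInjective hg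
  exact ⟨(Y.subtype.comp (P : Subgroup Y).subtype).comp (e.symm.toMonoidHom.comp e'.toMonoidHom),
    (Subtype.val_injective.comp Subtype.val_injective).comp (e.symm.injective.comp e'.injective)⟩

/-- subgroups of index prime to `p` -/
theorem PEmb.of_index [Finite A] [hp : Fact p.Prime] (N : Subgroup A) (hN : ¬ p ∣ N.index) : PEmb p A N := by
  refine PEmb.of_card N.subtype N.subtype_injective ?_
  rw [← N.card_mul_index, Nat.factorization_mul Nat.card_pos.ne' N.index_ne_zero_of_finite, Finsupp.add_apply,
    Nat.factorization_eq_zero_of_not_dvd hN, add_zero]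

section Orth

variable {F : Type} [Field F]

/-- `O⁻` of smaller rank -/
theorem exists_emb_mm {w m : ℕ} (h : w ≤ m) (a b : F) :
    ∃ f : Cfsg.isometryGroup F (Cfsg.quadFormMinus w F a b) →* Cfsg.isometryGroup F (Cfsg.quadFormMinus m F a b),
      Function.Injective f := by
  obtain ⟨r, rfl⟩ := Nat.exists_eq_add_of_le h
  refine exists_emb ((((Equiv.sumAssoc (Fin w ⊕ Fin w) (Fin 2) (Fin r ⊕ Fin r)).trans
    (Equiv.sumCongr (Equiv.refl _) (Equiv.sumComm (Fin 2) (Fin r ⊕ Fin r)))).trans
    (Equiv.sumAssoc (Fin w ⊕ Fin w) (Fin r ⊕ Fin r) (Fin 2)).symm).trans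
    (Equiv.sumCongr ((Equiv.sumSumSumComm (Fin w) (Fin w) (Fin r) (Fin r)).trans
      (Equiv.sumCongr finSumFinEquiv finSumFinEquiv)) (Equiv.refl (Fin 2))))
    (Cfsg.quadFormMinus w F a b) (Cfsg.quadFormPlus r F) _ ?_
  intro v
  rw [Cfsg.quadFormMinus, Cfsg.quadFormPlus, Cfsg.quadFormMinus, Fin.sum_univ_add, add_right_comm]
  rfl

end Orth

end Cfsg.Agent.H183.HT
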